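import Mathlib
import Cfsg.Agent.S0257
import Cfsg.Agent.Lib.Helper2.SL23
import Cfsg.Agent.Lib.Helper5.SL2Card

/-!
# Recognition of `GL(2,3)`

`iso_gl23`: a group of order 48 with a normal self-centralizing subgroup `Q ≃* QuaternionGroup 2`
and an involution outside `Q` is isomorphic to `GL (Fin 2) (ZMod 3)`.

Both the abstract group and `GL(2,3)` are identified with the model
`QuaternionGroup 2 ⋊ DihedralGroup 3` (`Model2`), see `iso_model2`.
-/

set_option autoImplicit false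

namespace Cfsg.Agent.Lib.Helper54.GL23

open QuaternionGroup
open Cfsg.Agent.Lib.Helper2.SL23 Cfsg.Agent.Lib.Helper20.DihQuat Cfsg.Agent.Lib.Helper20.ZP

/-- conjugate of the word map by an inner automorphism -/
def cj (u v p : QuaternionGroup 2) (x : QuaternionGroup 2) : QuaternionGroup 2 :=
  p * ev u v (p⁻¹ * x * p) * p⁻¹

set_option maxRecDepth 1000000 in
set_option synthInstance.maxSize 4096 in
set_option synthInstance.maxHeartbeats 2000000 in
theorem DM5 : ∀ u v : QuaternionGroup 2, (∀ q q', ev u v (q * q') = ev u v q * ev u v q') →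
    (∀ q, ev u v (ev u v (ev u v q)) = q) → (∃ q, ev u v q ≠ q) →
    ∀ u' v' : QuaternionGroup 2, (∀ q q', ev u' v' (q * q') = ev u' v' q * ev u' v' q') →
    (∀ q, ev u' v' (ev u' v' q) = q) → (∀ p, ∃ q, ev u' v' q ≠ p * q * p⁻¹) →
    ∃ p s, s ^ 2 ≠ 1 ∧ cj u v p (cj u v p s) = cj u v p s * s ∧
      cj u v p s * s * (cj u v p s)⁻¹ = s⁻¹ ∧ cj u v p s * cj u v p s = s ^ 2 ∧
      (∀ k < 4, cj u v p s ≠ s ^ k) ∧ ev u' v' s = (cj u v p s)⁻¹ ∧
      ev u' v' (cj u v p s) = s⁻¹ := by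
  decide +kernel

/-- the standard outer involution of `Q₈` inverting `phi0` -/
def delta0 : MulAut (QuaternionGroup 2) where
  toFun := ev (xa 2) (a 3)
  invFun := ev (xa 2) (a 3)
  left_inv := fun q => by revert q; decide
  right_inv := fun q => by revert q; decide
  map_mul' := by decide

theorem delta0_apply (q : QuaternionGroup 2) : delta0 q = ev (xa 2) (a 3) q := rfl

theorem delta0_sq : delta0 * delta0 = 1 := by
  ext q
  simp only [MulAut.mul_apply, MulAut.one_apply, delta0_apply]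
  revert q; decide

theorem rel0 : ∀ q : QuaternionGroup 2, delta0 (phi0 (delta0 (phi0 q))) = q := by
  intro q
  simp only [delta0_apply, phi0_apply]
  revert q; decide

theorem delta0_phi0 : delta0 * phi0 * delta0⁻¹ = phi0⁻¹ := by
  rw [mul_inv_eq_iff_eq_mul, eq_inv_mul_iff_mul_eq]
  have h : delta0 * phi0 * delta0 * phi0 = 1 := by
    ext q
    simp only [MulAut.mul_apply, MulAut.one_apply]
    exact rel0 q
  have hd : delta0⁻¹ = delta0 := inv_eq_of_mul_eq_one_left delta0_sq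
  calc phi0 * (delta0 * phi0) = delta0⁻¹ * (delta0 * phi0 * delta0 * phi0) := by group
    _ = delta0 := by rw [h, mul_one, hd]

theorem orderOf_phi0 : orderOf phi0 = 3 := by
  have : Fact (Nat.Prime 3) := ⟨Nat.prime_three⟩
  apply orderOf_eq_prime phi0_pow
  intro h
  have h1 : phi0 (a 1) = a 1 := by rw [h]; rfl
  revert h1
  rw [phi0_apply]
  decide

/-- the action of `S₃` on `Q₈` -/
def psi : DihedralGroup 3 →* MulAut (QuaternionGroup 2) :=
  dihHom orderOf_phi0 delta0_sq delta0_phi0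

/-- the model group `Q₈ ⋊ S₃` -/
abbrev Model2 := QuaternionGroup 2 ⋊[psi] DihedralGroup 3

theorem center_q8 : ∀ c : QuaternionGroup 2, (∀ q, c * q * c⁻¹ = q) → c * c = 1 := by decide

theorem invol_q8 : ∀ x y : QuaternionGroup 2, x * x = 1 → y * y = 1 → x ≠ 1 → y ≠ 1 → x = y := by
  decide

theorem delta0_a : delta0 (a 1) = (xa 0)⁻¹ := by rw [delta0_apply]; decide

theorem delta0_xa : delta0 (xa 0) = (a 1)⁻¹ := by rw [delta0_apply]; decide

theorem iso_model2 {H : Type*} [Group H] [Finite H] (hcard : Nat.card H = 48) (Q : Subgroup H)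
    [hQn : Q.Normal] (e : Q ≃* QuaternionGroup 2)
    (hCQ : Subgroup.centralizer (Q : Set H) ≤ Q) (t : H) (ht2 : t * t = 1) (htQ : t ∉ Q) :
    Nonempty (Model2 ≃* H) := by
  classical
  have : Fact (Nat.Prime 3) := ⟨Nat.prime_three⟩
  have htinv : t⁻¹ = t := inv_eq_of_mul_eq_one_left ht2
  have hcardQ : Nat.card Q = 8 := by
    rw [Nat.card_congr e.toEquiv, Nat.card_eq_fintype_card, QuaternionGroup.card]
  -- the action on `Q₈`
  obtain ⟨A, hA⟩ : ∃ A : H →* MulAut (QuaternionGroup 2),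
      A = (MulAut.congr e).toMonoidHom.comp (MulAut.conjNormal (H := Q)) := ⟨_, rfl⟩
  have hAv : ∀ (h : H) (q : QuaternionGroup 2),
      ((e.symm (A h q) : Q) : H) = h * ((e.symm q : Q) : H) * h⁻¹ := by
    intro h q
    have h1 : A h q = e (MulAut.conjNormal h (e.symm q)) := by rw [hA]; rfl
    rw [h1, MulEquiv.symm_apply_apply, MulAut.conjNormal_apply]
  have hK1 : ∀ h : H, A h = 1 → h ∈ Q := by
    intro h hh
    apply hCQ
    rw [Subgroup.mem_centralizer_iff]
    intro y hy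
    have h1 := hAv h (e ⟨y, hy⟩)
    rw [hh, MulAut.one_apply, MulEquiv.symm_apply_apply] at h1
    have h2 : y = h * y * h⁻¹ := h1
    calc y * h = (h * y * h⁻¹) * h := by rw [← h2]
      _ = h * y := by group
  have hK2 : ∀ (y : H) (hy : y ∈ Q) (q : QuaternionGroup 2),
      A y q = e ⟨y, hy⟩ * q * (e ⟨y, hy⟩)⁻¹ := by
    intro y hy q
    apply e.symm.injective
    apply Subtype.ext
    rw [hAv, map_mul, map_mul, map_inv, MulEquiv.symm_apply_apply]
    rfl
  -- an element of order 3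
  obtain ⟨g₀, hg₀⟩ := exists_prime_orderOf_dvd_card' (G := H) 3 (by rw [hcard]; decide)
  have hg₀3 : g₀ ^ 3 = 1 := by rw [← hg₀, pow_orderOf_eq_one]
  have hnot3 : ∀ y : H, orderOf y = 3 → y ∉ Q := by
    intro y hy hyQ
    have h1 : orderOf (⟨y, hyQ⟩ : Q) ∣ Nat.card Q := orderOf_dvd_natCard _
    rw [Subgroup.orderOf_mk, hy, hcardQ] at h1
    revert h1; decide
  obtain ⟨α, hα⟩ : ∃ α, α = A g₀ := ⟨_, rfl⟩
  obtain ⟨δ, hδ⟩ : ∃ δ, δ = A t := ⟨_, rfl⟩
  have hα3 : ∀ q, α (α (α q)) = q := by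
    intro q
    have h1 : α * α * α = 1 := by
      rw [hα, ← map_mul, ← map_mul]
      have : g₀ * g₀ * g₀ = 1 := by rw [← hg₀3]; simp [pow_succ]
      rw [this, map_one]
    have h2 := DFunLike.congr_fun h1 q
    simpa [MulAut.mul_apply] using h2
  have hαne : ∃ q, α q ≠ q := by
    by_contra hcon
    push Not at hcon
    have h1 : A g₀ = 1 := by
      rw [← hα]; ext q; rw [hcon q]; rfl
    exact hnot3 g₀ hg₀ (hK1 g₀ h1)
  have hδ2 : ∀ q, δ (δ q) = q := by
    intro q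
    have h1 : δ * δ = 1 := by rw [hδ, ← map_mul, ht2, map_one]
    have h2 := DFunLike.congr_fun h1 q
    simpa [MulAut.mul_apply] using h2
  have hδout : ∀ p, ∃ q, δ q ≠ p * q * p⁻¹ := by
    intro p
    by_contra hcon
    push Not at hcon
    apply htQ
    have hpQ : ((e.symm p : Q) : H) ∈ Q := (e.symm p).2
    have h1 : A (((e.symm p : Q) : H)⁻¹ * t) = 1 := by
      ext q
      rw [map_mul, MulAut.mul_apply, ← hδ, hcon q, hK2 _ (inv_mem hpQ), MulAut.one_apply]
      have h2 : e ⟨((e.symm p : Q) : H)⁻¹, inv_mem hpQ⟩ = p⁻¹ := by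
        have : (⟨((e.symm p : Q) : H)⁻¹, inv_mem hpQ⟩ : Q) = (e.symm p)⁻¹ := rfl
        rw [this, map_inv, MulEquiv.apply_symm_apply]
      rw [h2]; group
    have h3 := hK1 _ h1
    have : t = ((e.symm p : Q) : H) * (((e.symm p : Q) : H)⁻¹ * t) := by group
    rw [this]
    exact mul_mem hpQ h3
  obtain ⟨u, hu⟩ : ∃ u, u = α (a 1) := ⟨_, rfl⟩
  obtain ⟨v, hv⟩ : ∃ v, v = α (xa 0) := ⟨_, rfl⟩
  obtain ⟨u', hu'⟩ : ∃ u', u' = δ (a 1) := ⟨_, rfl⟩
  obtain ⟨v', hv'⟩ : ∃ v', v' = δ (xa 0) := ⟨_, rfl⟩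
  have hev : ∀ q, ev u v q = α q := fun q => by rw [hu, hv]; exact (aut_eq_ev α q).symm
  have hev' : ∀ q, ev u' v' q = δ q := fun q => by rw [hu', hv']; exact (aut_eq_ev δ q).symm
  obtain ⟨p, s, hs2, hs1, hs3, hs4, hs5, hd1, hd2⟩ := DM5 u v
    (by intro q q'; simp only [hev, map_mul]) (by intro q; simp only [hev]; exact hα3 q)
    (by obtain ⟨q, hq⟩ := hαne; exact ⟨q, by rwa [hev]⟩) u' v'
    (by intro q q'; simp only [hev', map_mul]) (by intro q; simp only [hev']; exact hδ2 q)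
    (by intro p; obtain ⟨q, hq⟩ := hδout p; exact ⟨q, by rwa [hev']⟩)
  -- the conjugated element of order 3
  obtain ⟨pt, hpt⟩ : ∃ pt : H, pt = ((e.symm p : Q) : H) := ⟨_, rfl⟩
  have hptQ : pt ∈ Q := by rw [hpt]; exact (e.symm p).2
  have hept : e ⟨pt, hptQ⟩ = p := by
    have : (⟨pt, hptQ⟩ : Q) = e.symm p := Subtype.ext hpt
    rw [this, MulEquiv.apply_symm_apply]
  have hept' : e ⟨pt⁻¹, inv_mem hptQ⟩ = p⁻¹ := by
    have : (⟨pt⁻¹, inv_mem hptQ⟩ : Q) = (⟨pt, hptQ⟩ : Q)⁻¹ := rfl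
    rw [this, map_inv, hept]
  obtain ⟨g, hg⟩ : ∃ g, g = pt * g₀ * pt⁻¹ := ⟨_, rfl⟩
  have hg3 : g ^ 3 = 1 := by rw [hg, conj_pow, hg₀3]; group
  have hg1 : g ≠ 1 := by
    intro h
    rw [hg] at h
    have : g₀ = pt⁻¹ * (pt * g₀ * pt⁻¹) * pt := by group
    rw [h] at this
    have h2 : g₀ = 1 := by rw [this]; group
    rw [h2, orderOf_one] at hg₀
    exact absurd hg₀ (by decide)
  have hog : orderOf g = 3 := orderOf_eq_prime hg3 hg1
  obtain ⟨α', hα'⟩ : ∃ α', α' = A g := ⟨_, rfl⟩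
  have hcj : ∀ q, cj u v p q = α' q := by
    intro q
    rw [hα', hg, map_mul, map_mul, MulAut.mul_apply, MulAut.mul_apply, hK2 pt hptQ,
      hK2 pt⁻¹ (inv_mem hptQ), hept, hept', ← hα, inv_inv]
    unfold cj
    rw [hev]
  rw [hcj, hcj] at hs1
  rw [hcj] at hs3 hs4 hd1 hd2
  rw [hev'] at hd1 hd2
  have hs5' : ∀ k < 4, α' s ≠ s ^ k := by
    intro k hk
    rw [← hcj]; exact hs5 k hk
  have hos : orderOf s = 2 * 2 := orderOf_eq_four s hs2
  -- the endomorphism β : a 1 ↦ s, xa 0 ↦ α' s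
  obtain ⟨β, hβ⟩ : ∃ β : QuaternionGroup 2 →* QuaternionGroup 2, β = quatHom hos hs4 hs3 :=
    ⟨_, rfl⟩
  have hβinj : Function.Injective β := by
    rw [hβ]
    apply quatHom_injective
    intro i
    exact hs5' i.val (ZMod.val_lt i)
  have hβsurj : Function.Surjective β := Finite.surjective_of_injective hβinj
  have hβa : β (a 1) = s := by
    rw [hβ, quatHom_a]; exact zp_one hos
  have hβx : β (xa 0) = α' s := by
    rw [hβ, quatHom_xa, zp_zero, mul_one]
  have hβx1 : β (xa 1) = α' s * s := by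
    rw [hβ, quatHom_xa, zp_one hos]
  have hcompα : ∀ q, α' (β q) = β (phi0 q) := by
    have hcomp : (α'.toMonoidHom.comp β) = β.comp phi0.toMonoidHom := by
      apply MonoidHom.eq_of_eqOn_dense (Cfsg.Agent.Lib.Helper66.DihedralStem.quaternion_closure 2)
      intro q hq
      rcases hq with rfl | rfl
      · show α' (β (a 1)) = β (phi0 (a 1))
        rw [hβa]
        have : phi0 (a 1) = xa 0 := by decide
        rw [this, hβx]
      · show α' (β (xa 0)) = β (phi0 (xa 0))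
        rw [hβx, hs1]
        have : phi0 (xa 0) = xa 1 := by decide
        rw [this, hβx1]
    exact fun q => DFunLike.congr_fun hcomp q
  have hcompδ : ∀ q, δ (β q) = β (delta0 q) := by
    have hcomp : (δ.toMonoidHom.comp β) = β.comp delta0.toMonoidHom := by
      apply MonoidHom.eq_of_eqOn_dense (Cfsg.Agent.Lib.Helper66.DihedralStem.quaternion_closure 2)
      intro q hq
      rcases hq with rfl | rfl
      · show δ (β (a 1)) = β (delta0 (a 1))
        rw [hβa, hd1, delta0_a, map_inv, hβx]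
      · show δ (β (xa 0)) = β (delta0 (xa 0))
        rw [hβx, hd2, delta0_xa, map_inv, hβa]
    exact fun q => DFunLike.congr_fun hcomp q
  -- `t` inverts `g`
  obtain ⟨c, hc⟩ : ∃ c, c = t * g * t * g := ⟨_, rfl⟩
  have hAc : A c = 1 := by
    ext q
    obtain ⟨q', rfl⟩ := hβsurj q
    rw [hc, map_mul, map_mul, map_mul, ← hδ, ← hα', MulAut.mul_apply, MulAut.mul_apply,
      MulAut.mul_apply, hcompα, hcompδ, hcompα, hcompδ, rel0, MulAut.one_apply]
  have hcQ : c ∈ Q := hK1 c hAc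
  have hcc : c * c = 1 := by
    have h1 : e ⟨c, hcQ⟩ * e ⟨c, hcQ⟩ = 1 := by
      apply center_q8
      intro q
      rw [← hK2 c hcQ q, hAc, MulAut.one_apply]
    have h2 : (⟨c, hcQ⟩ : Q) * ⟨c, hcQ⟩ = 1 := by
      apply e.injective
      rw [map_mul, h1, map_one]
    exact congrArg Subtype.val h2
  have huniq : ∀ x ∈ Q, ∀ y ∈ Q, x * x = 1 → y * y = 1 → x ≠ 1 → y ≠ 1 → x = y := by
    intro x hx y hy hx2 hy2 hx1 hy1
    have h := invol_q8 (e ⟨x, hx⟩) (e ⟨y, hy⟩)
      (by rw [← map_mul]; rw [show (⟨x, hx⟩ : Q) * ⟨x, hx⟩ = 1 from Subtype.ext hx2, map_one])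
      (by rw [← map_mul]; rw [show (⟨y, hy⟩ : Q) * ⟨y, hy⟩ = 1 from Subtype.ext hy2, map_one])
      (by
        intro h
        apply hx1
        have : (⟨x, hx⟩ : Q) = 1 := e.injective (by rw [h, map_one])
        exact congrArg Subtype.val this)
      (by
        intro h
        apply hy1
        have : (⟨y, hy⟩ : Q) = 1 := e.injective (by rw [h, map_one])
        exact congrArg Subtype.val this)
    exact congrArg Subtype.val (e.injective h)
  have hc1 : c = 1 := by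
    by_contra hc1
    have hgc : g * c * g⁻¹ = c := by
      apply huniq _ (hQn.conj_mem c hcQ g) _ hcQ _ hcc _ hc1
      · calc g * c * g⁻¹ * (g * c * g⁻¹) = g * (c * c) * g⁻¹ := by group
          _ = 1 := by rw [hcc]; group
      · intro h
        apply hc1
        have : c = g⁻¹ * (g * c * g⁻¹) * g := by group
        rw [this, h]; group
    have hgc' : g⁻¹ * c = c * g⁻¹ := by
      calc g⁻¹ * c = g⁻¹ * (g * c * g⁻¹) := by rw [hgc]
        _ = c * g⁻¹ := by group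
    have h1 : t * g * t = c * g⁻¹ := by rw [hc]; group
    have h2 : (t * g * t) ^ 3 = 1 := by
      have : t * g * t = t * g * t⁻¹ := by rw [htinv]
      rw [this, conj_pow, hg3]; group
    have h3 : (c * g⁻¹) ^ 3 = c := by
      have hcm : Commute c g⁻¹ := hgc'.symm
      rw [hcm.mul_pow, inv_pow, hg3, inv_one, mul_one, pow_succ, pow_two, hcc, one_mul]
    rw [h1, h3] at h2
    exact hc1 h2
  have htg : t * g * t⁻¹ = g⁻¹ := by
    rw [htinv]
    rw [hc] at hc1
    exact eq_inv_of_mul_eq_one_left hc1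
  -- the maps
  obtain ⟨f₁, hf₁⟩ : ∃ f₁ : QuaternionGroup 2 →* H,
      f₁ = Q.subtype.comp (e.symm.toMonoidHom.comp β) := ⟨_, rfl⟩
  have hf₁v : ∀ q, f₁ q = ((e.symm (β q) : Q) : H) := fun q => by rw [hf₁]; rfl
  have hf₁Q : ∀ q, f₁ q ∈ Q := fun q => by rw [hf₁v]; exact (e.symm (β q)).2
  have hf₁inj : Function.Injective f₁ := by
    intro q q' h
    rw [hf₁v, hf₁v] at h
    exact hβinj (e.symm.injective (Subtype.ext h))
  obtain ⟨f₂, hf₂⟩ : ∃ f₂ : DihedralGroup 3 →* H, f₂ = dihHom hog ht2 htg := ⟨_, rfl⟩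
  have hbase : ∀ q, f₁ (phi0 q) = g * f₁ q * g⁻¹ := by
    intro q
    rw [hf₁v, hf₁v, ← hcompα, hα', hAv]
  have hbaset : ∀ q, f₁ (delta0 q) = t * f₁ q * t⁻¹ := by
    intro q
    rw [hf₁v, hf₁v, ← hcompδ, hδ, hAv]
  have hpow : ∀ (k : ℕ) q, f₁ ((phi0 ^ k) q) = g ^ k * f₁ q * (g ^ k)⁻¹ := by
    intro k
    induction k with
    | zero => intro q; simp
    | succ k ih =>
      intro q
      rw [pow_succ, MulAut.mul_apply, ih, hbase, pow_succ]
      group
  have hcompat : ∀ d, f₁.comp (psi d).toMonoidHom =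
      (MulAut.conj (f₂ d)).toMonoidHom.comp f₁ := by
    intro d
    ext q
    rcases d with i | i
    · show f₁ ((psi (DihedralGroup.r i)) q) = f₂ (DihedralGroup.r i) * f₁ q *
        (f₂ (DihedralGroup.r i))⁻¹
      have h1 : psi (DihedralGroup.r i) = phi0 ^ i.val := rfl
      have h2 : f₂ (DihedralGroup.r i) = g ^ i.val := by rw [hf₂]; rfl
      rw [h1, h2, hpow]
    · show f₁ ((psi (DihedralGroup.sr i)) q) = f₂ (DihedralGroup.sr i) * f₁ q *
        (f₂ (DihedralGroup.sr i))⁻¹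
      have h1 : psi (DihedralGroup.sr i) = delta0 * phi0 ^ i.val := rfl
      have h2 : f₂ (DihedralGroup.sr i) = t * g ^ i.val := by rw [hf₂]; rfl
      rw [h1, h2, MulAut.mul_apply, hbaset, hpow]
      group
  obtain ⟨Θ, hΘ⟩ : ∃ Θ : Model2 →* H, Θ = SemidirectProduct.lift f₁ f₂ hcompat := ⟨_, rfl⟩
  have hΘv : ∀ y : Model2, Θ y = f₁ y.left * f₂ y.right := fun y => by rw [hΘ]; rfl
  have hpowQ : ∀ k : ℕ, k < 3 → g ^ k ∈ Q → k = 0 := by
    intro k hk hmem
    have h8 : (g ^ k) ^ 8 = 1 := by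
      have := pow_card_eq_one' (G := Q) (x := ⟨g ^ k, hmem⟩)
      rw [hcardQ] at this
      exact congrArg Subtype.val this
    have h3 : (g ^ k) ^ 3 = 1 := by rw [← pow_mul, mul_comm, pow_mul, hg3, one_pow]
    have h0 : g ^ k = 1 := by
      have : g ^ k = ((g ^ k) ^ 3) ^ 3 * ((g ^ k) ^ 8)⁻¹ := by
        rw [← pow_mul]; group
      rw [this, h3, h8]; simp
    have hdvd : 3 ∣ k := by
      have hd := orderOf_dvd_of_pow_eq_one h0
      rwa [hog] at hd
    exact Nat.eq_zero_of_dvd_of_lt hdvd hk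
  have hinj : Function.Injective Θ := by
    rw [injective_iff_map_eq_one]
    intro y hy
    rw [hΘv] at hy
    have h1 : f₂ y.right = (f₁ y.left)⁻¹ := eq_inv_of_mul_eq_one_right hy
    have h2Q : f₂ y.right ∈ Q := by rw [h1]; exact inv_mem (hf₁Q _)
    have hr : y.right = 1 := by
      rcases hyr : y.right with i | i
      · rw [hyr] at h2Q
        have h2 : f₂ (DihedralGroup.r i) = g ^ i.val := by rw [hf₂]; rfl
        rw [h2] at h2Q
        have h3 := hpowQ i.val (ZMod.val_lt i) h2Q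
        have : i = 0 := (ZMod.val_eq_zero i).1 h3
        rw [this]; rfl
      · exfalso
        rw [hyr] at h2Q
        have h2 : f₂ (DihedralGroup.sr i) = t * g ^ i.val := by rw [hf₂]; rfl
        rw [h2] at h2Q
        -- `g ^ k * t ∈ Q`, hence `t * g ^ (2k) * t ∈ Q`
        have h3 : g ^ i.val * t ∈ Q := by
          have := hQn.conj_mem _ h2Q t⁻¹
          have h4 : t⁻¹ * (t * g ^ i.val) * t⁻¹⁻¹ = g ^ i.val * t := by group
          rwa [h4] at this
        have h5 : t * (g ^ i.val * g ^ i.val) * t⁻¹ ∈ Q := by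
          have := mul_mem h2Q h3
          have h6 : t * g ^ i.val * (g ^ i.val * t) = t * (g ^ i.val * g ^ i.val) * t⁻¹ := by
            rw [htinv]; group
          rwa [h6] at this
        have h7 : g ^ i.val * g ^ i.val ∈ Q := by
          have := hQn.conj_mem _ h5 t⁻¹
          have h8 : t⁻¹ * (t * (g ^ i.val * g ^ i.val) * t⁻¹) * t⁻¹⁻¹ = g ^ i.val * g ^ i.val := by
            group
          rwa [h8] at this
        have h9 : g ^ i.val ∈ Q := by
          have h10 : g ^ i.val = (g ^ i.val * g ^ i.val)⁻¹ * (g ^ i.val * g ^ i.val) *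
              (g ^ i.val * g ^ i.val) * (g ^ i.val) ^ 3 * ((g ^ i.val * g ^ i.val) *
              (g ^ i.val * g ^ i.val))⁻¹ := by
            group
          have h11 : (g ^ i.val) ^ 3 = 1 := by rw [← pow_mul, mul_comm, pow_mul, hg3, one_pow]
          rw [h10, h11]
          exact mul_mem (mul_mem (mul_mem (mul_mem (inv_mem h7) h7) h7) (one_mem _))
            (inv_mem (mul_mem h7 h7))
        apply htQ
        have : t = (t * g ^ i.val) * (g ^ i.val)⁻¹ := by group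
        rw [this]
        exact mul_mem h2Q (inv_mem h9)
    have hl : y.left = 1 := by
      rw [hr, map_one, mul_one] at hy
      exact hf₁inj (by rw [hy, map_one])
    exact SemidirectProduct.ext hl hr
  have hbij : Function.Bijective Θ := by
    apply hinj.bijective_of_nat_card_le
    rw [hcard, SemidirectProduct.card, Nat.card_eq_fintype_card, QuaternionGroup.card,
      DihedralGroup.nat_card]
  exact ⟨MulEquiv.ofBijective Θ hbij⟩

/-! ### `GL(2,3)` -/

open Matrix Cfsg.Agent.S0257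

set_option maxRecDepth 1000000 in
theorem φ₃_normal' : ∀ M : Matrix (Fin 2) (Fin 2) (ZMod 3), M.det ≠ 0 →
    ∀ x, ∃ y, M * φ₃ x * (M.det • M.adjugate) = φ₃ y := by decide

set_option maxRecDepth 1000000 in
theorem φ₃_cent : ∀ M : Matrix (Fin 2) (Fin 2) (ZMod 3), M * φ₃ (a 1) = φ₃ (a 1) * M →
    M * φ₃ (xa 0) = φ₃ (xa 0) * M → M.det ≠ 0 → ∃ y, M = φ₃ y := by decide

/-- the reflection `diag(1,-1)` -/
def T₃ : Matrix (Fin 2) (Fin 2) (ZMod 3) := !![1, 0; 0, -1]

theorem T₃_sq : T₃ * T₃ = 1 := by decide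

theorem T₃_not : ∀ y, φ₃ y ≠ T₃ := by decide

theorem sq_zmod3 : ∀ d : ZMod 3, d ≠ 0 → d * d = 1 := by decide

/-- the embedding of `Q₈` in `GL(2,3)` -/
def Φ : QuaternionGroup 2 →* GL (Fin 2) (ZMod 3) where
  toFun x := ⟨φ₃ x, φ₃ x⁻¹, by rw [← φ₃_mul, mul_inv_cancel, φ₃_one],
    by rw [← φ₃_mul, inv_mul_cancel, φ₃_one]⟩
  map_one' := Units.ext φ₃_one
  map_mul' x y := Units.ext (φ₃_mul x y)

theorem Φ_coe (x : QuaternionGroup 2) : ((Φ x : GL (Fin 2) (ZMod 3)) : Matrix (Fin 2) (Fin 2) (ZMod 3)) = φ₃ x := rfl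

theorem Φ_injective : Function.Injective Φ := by
  intro x y h
  apply φ₃_inj
  have := congrArg (fun g : GL (Fin 2) (ZMod 3) => (g : Matrix (Fin 2) (Fin 2) (ZMod 3))) h
  exact this

theorem det_ne_zero_gl (g : GL (Fin 2) (ZMod 3)) :
    (g : Matrix (Fin 2) (Fin 2) (ZMod 3)).det ≠ 0 := by
  have h1 : (g : Matrix (Fin 2) (Fin 2) (ZMod 3)) * ((g⁻¹ : GL (Fin 2) (ZMod 3)) : Matrix (Fin 2) (Fin 2) (ZMod 3)) = 1 := by
    rw [← Units.val_mul, mul_inv_cancel]; rfl
  intro h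
  have h2 := congrArg Matrix.det h1
  rw [Matrix.det_mul, h, zero_mul, Matrix.det_one] at h2
  exact zero_ne_one h2

theorem inv_coe_gl (g : GL (Fin 2) (ZMod 3)) :
    ((g⁻¹ : GL (Fin 2) (ZMod 3)) : Matrix (Fin 2) (Fin 2) (ZMod 3)) =
      (g : Matrix (Fin 2) (Fin 2) (ZMod 3)).det • (g : Matrix (Fin 2) (Fin 2) (ZMod 3)).adjugate := by
  apply Units.inv_eq_of_mul_eq_one_right
  rw [Matrix.mul_smul, Matrix.mul_adjugate, smul_smul, sq_zmod3 _ (det_ne_zero_gl g), one_smul]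

instance Φ_range_normal : (Φ.range).Normal := by
  constructor
  rintro _ ⟨x, rfl⟩ g
  obtain ⟨y, hy⟩ := φ₃_normal' (g : Matrix (Fin 2) (Fin 2) (ZMod 3)) (det_ne_zero_gl g) x
  refine ⟨y, ?_⟩
  apply Units.ext
  rw [Units.val_mul, Units.val_mul, inv_coe_gl, Φ_coe, Φ_coe, hy]

theorem Φ_cent : Subgroup.centralizer (Φ.range : Set (GL (Fin 2) (ZMod 3))) ≤ Φ.range := by
  intro g hg
  rw [Subgroup.mem_centralizer_iff] at hg
  have h1 := hg (Φ (a 1)) ⟨_, rfl⟩
  have h2 := hg (Φ (xa 0)) ⟨_, rfl⟩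
  have h1' := congrArg (fun g : GL (Fin 2) (ZMod 3) => (g : Matrix (Fin 2) (Fin 2) (ZMod 3))) h1
  have h2' := congrArg (fun g : GL (Fin 2) (ZMod 3) => (g : Matrix (Fin 2) (Fin 2) (ZMod 3))) h2
  simp only [Units.val_mul, Φ_coe] at h1' h2'
  obtain ⟨y, hy⟩ := φ₃_cent (g : Matrix (Fin 2) (Fin 2) (ZMod 3)) h1'.symm h2'.symm
    (det_ne_zero_gl g)
  exact ⟨y, Units.ext hy.symm⟩

/-- the reflection as an element of `GL(2,3)` -/
def tGL : GL (Fin 2) (ZMod 3) := ⟨T₃, T₃, T₃_sq, T₃_sq⟩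

theorem gl_model2 : Nonempty (Model2 ≃* GL (Fin 2) (ZMod 3)) := by
  apply iso_model2 (Q := Φ.range) _ (MonoidHom.ofInjective Φ_injective).symm Φ_cent tGL
  · exact Units.ext T₃_sq
  · rintro ⟨y, hy⟩
    have := congrArg (fun g : GL (Fin 2) (ZMod 3) => (g : Matrix (Fin 2) (Fin 2) (ZMod 3))) hy
    exact T₃_not y this
  · rw [Cfsg.Agent.Lib.Helper5.SL2Card.card_GL_two (F := ZMod 3) (q := 3) (ZMod.card 3)]
    norm_num

/-- A group of order 48 with a normal self-centralizing quaternion subgroup of order 8 and an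
involution outside it is isomorphic to `GL(2,3)`. -/
theorem iso_gl23 {H : Type*} [Group H] [Finite H] (hcard : Nat.card H = 48) (Q : Subgroup H)
    [hQn : Q.Normal] (e : Q ≃* QuaternionGroup 2)
    (hCQ : Subgroup.centralizer (Q : Set H) ≤ Q) (t : H) (ht2 : t * t = 1) (htQ : t ∉ Q) :
    Nonempty (H ≃* GL (Fin 2) (ZMod 3)) := by
  obtain ⟨Θ⟩ := iso_model2 hcard Q e hCQ t ht2 htQ
  obtain ⟨Θ'⟩ := gl_model2
  exact ⟨Θ.symm.trans Θ'⟩

end Cfsg.Agent.Lib.Helper54.GL23
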